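import Mathlib
import Cfsg.Agent.Lib.Helper51.GL3.Defs

/-!
# S1906 package (Z): a nonabelian 2-subgroup of `GL₃(F)` has a central non-scalar element
-/

set_option autoImplicit false

universe u v

namespace Cfsg.Agent.Lib.Helper90.GL3

open Matrix
open scoped commutatorElement

/-- The subgroup of the elements mapped to scalar matrices. -/
def scalarSub {X : Type u} [Group X] {F : Type v} [Field F] (f : X →* GL (Fin 3) F) :
    Subgroup X where
  carrier := {x | ∃ c : F,
    ((f x : GL (Fin 3) F) : Matrix (Fin 3) (Fin 3) F) = Matrix.diagonal (fun _ => c)}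
  mul_mem' := by
    rintro a b ⟨c, hc⟩ ⟨d, hd⟩
    refine ⟨c * d, ?_⟩
    rw [map_mul, Units.val_mul, hc, hd, Matrix.diagonal_mul_diagonal]
  one_mem' := ⟨1, by simp⟩
  inv_mem' := by
    rintro a ⟨c, hc⟩
    have hdet : IsUnit (Matrix.det ((f a : GL (Fin 3) F) : Matrix (Fin 3) (Fin 3) F)) :=
      (Matrix.isUnit_iff_isUnit_det _).1 (f a).isUnit
    have hc0 : c ≠ 0 := by
      rintro rfl
      rw [hc, Matrix.det_diagonal] at hdet
      simp at hdet
    refine ⟨c⁻¹, ?_⟩
    have h1 : ((f a⁻¹ : GL (Fin 3) F) : Matrix (Fin 3) (Fin 3) F) *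
        ((f a : GL (Fin 3) F) : Matrix (Fin 3) (Fin 3) F) = 1 := by
      rw [← Units.val_mul, ← map_mul, inv_mul_cancel, map_one, Units.val_one]
    have h2 : Matrix.diagonal (fun _ : Fin 3 => c) * Matrix.diagonal (fun _ : Fin 3 => c⁻¹)
        = (1 : Matrix (Fin 3) (Fin 3) F) := by
      rw [Matrix.diagonal_mul_diagonal]
      simp [hc0]
    calc ((f a⁻¹ : GL (Fin 3) F) : Matrix (Fin 3) (Fin 3) F)
        = ((f a⁻¹ : GL (Fin 3) F) : Matrix (Fin 3) (Fin 3) F) *
            (Matrix.diagonal (fun _ : Fin 3 => c) * Matrix.diagonal (fun _ : Fin 3 => c⁻¹)) := by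
          rw [h2, mul_one]
      _ = Matrix.diagonal (fun _ : Fin 3 => c⁻¹) := by
          rw [← mul_assoc, ← hc, h1, one_mul]

theorem mem_scalarSub {X : Type u} [Group X] {F : Type v} [Field F] (f : X →* GL (Fin 3) F)
    (x : X) : x ∈ scalarSub f ↔ ∃ c : F,
      ((f x : GL (Fin 3) F) : Matrix (Fin 3) (Fin 3) F) = Matrix.diagonal (fun _ => c) :=
  Iff.rfl

theorem scalarSub_normal {X : Type u} [Group X] {F : Type v} [Field F]
    (f : X →* GL (Fin 3) F) : (scalarSub f).Normal := by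
  refine ⟨fun x hx g => ?_⟩
  obtain ⟨c, hc⟩ := hx
  refine ⟨c, ?_⟩
  have h1 : ((f g : GL (Fin 3) F) : Matrix (Fin 3) (Fin 3) F) *
      ((f g⁻¹ : GL (Fin 3) F) : Matrix (Fin 3) (Fin 3) F) = 1 := by
    rw [← Units.val_mul, ← map_mul, mul_inv_cancel, map_one, Units.val_one]
  rw [map_mul, map_mul, Units.val_mul, Units.val_mul, hc, ← Matrix.smul_one_eq_diagonal,
    Matrix.mul_smul, Matrix.smul_mul, mul_one, h1]

theorem lemCentral : Cfsg.Agent.Lib.Helper51.GL3.LemCentral.{u, v} := by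
  intro X _ _ F _ hX f hf hna
  classical
  have hSn : (scalarSub f).Normal := scalarSub_normal f
  have hSne : scalarSub f ≠ ⊤ := by
    intro h
    apply hna
    intro a b
    have ha : a ∈ scalarSub f := h ▸ Subgroup.mem_top a
    have hb : b ∈ scalarSub f := h ▸ Subgroup.mem_top b
    obtain ⟨c, hc⟩ := ha
    obtain ⟨d, hd⟩ := hb
    apply hf
    apply Units.ext
    rw [map_mul, map_mul, Units.val_mul, Units.val_mul, hc, hd, Matrix.diagonal_mul_diagonal,
      Matrix.diagonal_mul_diagonal]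
    congr 1
    ext i
    exact mul_comm c d
  obtain ⟨x0, hx0⟩ : ∃ x, x ∉ scalarSub f := by
    by_contra h
    push_neg at h
    exact hSne ((Subgroup.eq_top_iff' _).2 h)
  haveI : Nontrivial (X ⧸ scalarSub f) :=
    ⟨⟨(x0 : X ⧸ scalarSub f), 1, fun h => hx0 ((QuotientGroup.eq_one_iff x0).1 h)⟩⟩
  have hQ : IsPGroup 2 (X ⧸ scalarSub f) := hX.to_quotient (scalarSub f)
  haveI : Fact (Nat.Prime 2) := ⟨Nat.prime_two⟩
  haveI := hQ.center_nontrivial
  obtain ⟨⟨zb, hzb⟩, hne⟩ := exists_ne (1 : Subgroup.center (X ⧸ scalarSub f))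
  obtain ⟨z, rfl⟩ := QuotientGroup.mk_surjective zb
  have hzS : z ∉ scalarSub f := fun h => hne (Subtype.ext ((QuotientGroup.eq_one_iff z).2 h))
  have hcomm : ∀ x : X, ⁅z, x⁆ ∈ scalarSub f := by
    intro x
    rw [← QuotientGroup.eq_one_iff]
    have h1 := Subgroup.mem_center_iff.1 hzb (x : X ⧸ scalarSub f)
    rw [commutatorElement_def, QuotientGroup.mk_mul, QuotientGroup.mk_mul, QuotientGroup.mk_mul,
      QuotientGroup.mk_inv, QuotientGroup.mk_inv, ← h1]
    group
  have hone : ∀ x : X, ⁅z, x⁆ = 1 := by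
    intro x
    obtain ⟨c, hc⟩ := hcomm x
    obtain ⟨k, hk⟩ := hX ⁅z, x⁆
    have hdet : Matrix.det ((f ⁅z, x⁆ : GL (Fin 3) F) : Matrix (Fin 3) (Fin 3) F) = 1 := by
      have h1 : Matrix.GeneralLinearGroup.det (f ⁅z, x⁆) = 1 := by
        rw [map_commutatorElement, map_commutatorElement]
        exact commutatorElement_eq_one_iff_commute.2 (Commute.all _ _)
      have h2 : ((Matrix.GeneralLinearGroup.det (f ⁅z, x⁆) : Fˣ) : F) = 1 := by
        rw [h1]; rfl
      rwa [Matrix.GeneralLinearGroup.val_det_apply] at h2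
    rw [hc, Matrix.det_diagonal] at hdet
    have hc3 : c ^ 3 = 1 := by simpa using hdet
    have hc2 : c ^ (2 ^ k) = 1 := by
      have h2 : ((f (⁅z, x⁆ ^ 2 ^ k) : GL (Fin 3) F) : Matrix (Fin 3) (Fin 3) F) = 1 := by
        rw [hk]; simp
      rw [map_pow, Units.val_pow_eq_pow_val, hc, Matrix.diagonal_pow] at h2
      have h3 := congrFun (congrFun h2 0) 0
      simpa using h3
    have hc1 : c = 1 := by
      have hd3 := orderOf_dvd_of_pow_eq_one hc3
      have hd2 := orderOf_dvd_of_pow_eq_one hc2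
      have h4 : orderOf c ∣ Nat.gcd 3 (2 ^ k) := Nat.dvd_gcd hd3 hd2
      have hg : Nat.gcd 3 (2 ^ k) = 1 := Nat.Coprime.pow_right k (by norm_num)
      rw [hg, Nat.dvd_one] at h4
      exact orderOf_eq_one_iff.1 h4
    apply hf
    apply Units.ext
    rw [hc, hc1, map_one]
    simp
  refine ⟨z, ?_, hzS⟩
  rw [Subgroup.mem_center_iff]
  intro x
  have h5 := hone x
  rw [commutatorElement_eq_one_iff_mul_comm] at h5
  exact h5.symm

end Cfsg.Agent.Lib.Helper90.GL3
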